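import Cfsg.Agent.Lib.Spor.Model
import Cfsg.Prelude.Def_Spor_J2

/-!
A computable model of the icosian ring.
-/

set_option autoImplicit false

namespace Cfsg.Agent.SporFus

open Cfsg.Spor Cfsg.Agent.PC Quaternion

theorem tau_sq : tau ^ 2 = tau + 1 := by
  have := Real.sq_sqrt (show (0 : ℝ) ≤ 5 by norm_num)
  unfold tau
  linear_combination (1 / 4) * this

theorem sig_eq : sig = 1 - tau := by unfold sig tau; ring

theorem sqrt5_eq : Real.sqrt 5 = 2 * tau - 1 := by unfold tau; ring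

theorem tau_pos : 0 < tau := by unfold tau; positivity

theorem tau_indep {a b : ℤ} (h : (a : ℝ) + b * tau = 0) : a = 0 ∧ b = 0 := by
  have hb : b = 0 := by
    by_contra hb
    have h5 : Irrational (Real.sqrt 5) := (by norm_num : Nat.Prime 5).irrational_sqrt
    refine h5 ⟨(-(2 * a + b) : ℤ) / (b : ℤ), ?_⟩
    have : (b : ℝ) ≠ 0 := by exact_mod_cast hb
    rw [sqrt5_eq]
    push_cast
    field_simp
    linear_combination (-2) * h
  subst hb
  exact ⟨by simpa using h, rfl⟩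

/-- Equality test for integers. -/
noncomputable def ibeq (a b : ℤ) : Bool :=
  Int.rec (fun m => Int.rec (fun n => Nat.beq m n) (fun _ => false) b)
    (fun m => Int.rec (fun _ => false) (fun n => Nat.beq m n) b) a

theorem ibeq_iff {a b : ℤ} : ibeq a b = true ↔ a = b := by
  cases a <;> cases b <;> simp [ibeq]

/-- Parity test for integers. -/
noncomputable def iev (a : ℤ) : Bool :=
  Int.rec (fun m => Nat.beq (m % 2) 0) (fun m => Nat.beq (m % 2) 1) a

theorem iev_iff {a : ℤ} : iev a = true ↔ 2 ∣ a := by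
  cases a <;> simp only [iev, Nat.beq_eq, Int.ofNat_eq_natCast, Int.negSucc_eq] <;> omega

/-- Half of an even integer. -/
noncomputable def ihalf (a : ℤ) : ℤ :=
  Int.rec (fun m => Int.ofNat (m / 2)) (fun m => Int.negSucc (m / 2)) a

theorem ihalf_eq (a : ℤ) : ihalf a = a / 2 := by
  cases a <;> simp only [ihalf, Int.ofNat_eq_natCast, Int.negSucc_eq] <;> omega

theorem ineg_eq (a : ℤ) : Int.neg a = -a := rfl

/-- The ring `ℤ[τ]`. -/
@[ext] structure Zt where
  a : ℤ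
  b : ℤ

namespace Zt

def add (x y : Zt) : Zt := ⟨Int.add x.a y.a, Int.add x.b y.b⟩
def sub (x y : Zt) : Zt := ⟨Int.sub x.a y.a, Int.sub x.b y.b⟩
def neg (x : Zt) : Zt := ⟨Int.neg x.a, Int.neg x.b⟩
def mul (x y : Zt) : Zt :=
  ⟨Int.add (Int.mul x.a y.a) (Int.mul x.b y.b),
    Int.add (Int.mul x.a y.b) (Int.mul x.b (Int.add y.a y.b))⟩
/-- Multiplication by `σ`. -/
def sg (x : Zt) : Zt := ⟨Int.sub x.a x.b, Int.neg x.a⟩
noncomputable def beq (x y : Zt) : Bool := ibeq x.a y.a && ibeq x.b y.b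
noncomputable def ev (x : Zt) : Bool := iev x.a && iev x.b
noncomputable def half (x : Zt) : Zt := ⟨ihalf x.a, ihalf x.b⟩
noncomputable def toR (x : Zt) : ℝ := x.a + x.b * tau

theorem beq_iff {x y : Zt} : x.beq y = true ↔ x = y := by
  simp [beq, ibeq_iff, Zt.ext_iff]

@[simp] theorem toR_add (x y : Zt) : (x.add y).toR = x.toR + y.toR := by
  simp [toR, add]; ring
@[simp] theorem toR_sub (x y : Zt) : (x.sub y).toR = x.toR - y.toR := by
  simp only [toR, sub, Int.sub, Int.cast_add, Int.cast_neg]; ring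
@[simp] theorem toR_neg (x : Zt) : x.neg.toR = -x.toR := by
  simp only [toR, neg, ineg_eq, Int.cast_neg]; ring
@[simp] theorem toR_mul (x y : Zt) : (x.mul y).toR = x.toR * y.toR := by
  simp only [toR, mul, Int.add_def, Int.mul_def, Int.cast_add, Int.cast_mul]
  linear_combination (-(x.b * y.b : ℝ)) * tau_sq
@[simp] theorem toR_sg (x : Zt) : x.sg.toR = (1 - tau) * x.toR := by
  simp only [toR, sg, Int.sub, ineg_eq, Int.cast_add, Int.cast_neg]
  linear_combination (x.b : ℝ) * tau_sq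

theorem toR_inj {x y : Zt} (h : x.toR = y.toR) : x = y := by
  have := tau_indep (a := x.a - y.a) (b := x.b - y.b) (by
    push_cast; unfold toR at h; linear_combination h)
  exact Zt.ext (by omega) (by omega)

theorem ev_iff {x : Zt} : x.ev = true ↔ x.half.add x.half = x := by
  simp only [ev, iev_iff, Bool.and_eq_true, Zt.ext_iff, add, half, ihalf_eq, Int.add_def]
  omega

theorem half_add_self (x : Zt) : (x.add x).half = x := by
  simp only [Zt.ext_iff, add, half, ihalf_eq, Int.add_def]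
  omega

end Zt

/-- The icosian ring, in the basis `1, i, v, i v` over `ℤ[τ]`. -/
@[ext] structure Ico where
  a : Zt
  b : Zt
  c : Zt
  d : Zt

namespace Ico

def zero : Ico := ⟨⟨0, 0⟩, ⟨0, 0⟩, ⟨0, 0⟩, ⟨0, 0⟩⟩
def ofInt (n : ℤ) : Ico := ⟨⟨n, 0⟩, ⟨0, 0⟩, ⟨0, 0⟩, ⟨0, 0⟩⟩
def add (x y : Ico) : Ico := ⟨x.a.add y.a, x.b.add y.b, x.c.add y.c, x.d.add y.d⟩
def sub (x y : Ico) : Ico := ⟨x.a.sub y.a, x.b.sub y.b, x.c.sub y.c, x.d.sub y.d⟩
def neg (x : Ico) : Ico := ⟨x.a.neg, x.b.neg, x.c.neg, x.d.neg⟩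
def conj (x : Ico) : Ico := ⟨(x.a.add x.c).sub x.d.sg, x.b.neg, x.c.neg, x.d.neg⟩
def mul' (x y : Ico) : Ico :=
  ⟨(x.a.mul y.a).sub ((((x.b.mul y.b).add (x.c.mul y.b).sg).add (x.c.mul y.c)).add
      ((x.d.mul y.b).add (x.d.mul y.d))),
    ((((x.a.mul y.b).add (x.b.mul y.a)).add (x.c.mul y.b)).add (x.c.mul y.d)).sub
      ((x.d.mul y.b).sg.add (x.d.mul y.c)),
    ((((x.a.mul y.c).add (x.c.mul y.a)).add (x.c.mul y.c)).add (x.d.mul y.b)).sub
      ((x.b.mul y.d).add (x.c.mul y.d).sg),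
    ((((x.a.mul y.d).add (x.d.mul y.a)).add (x.b.mul y.c)).add (x.d.mul y.c)).sub
      ((x.c.mul y.b).add (x.d.mul y.d).sg)⟩
noncomputable def beq (x y : Ico) : Bool :=
  x.a.beq y.a && x.b.beq y.b && x.c.beq y.c && x.d.beq y.d
noncomputable def mul (x y : Ico) : Ico :=
  (x.beq zero).rec ((y.beq zero).rec (x.mul' y) zero) zero
noncomputable def ev (x : Ico) : Bool := x.a.ev && x.b.ev && x.c.ev && x.d.ev
noncomputable def half (x : Ico) : Ico := ⟨x.a.half, x.b.half, x.c.half, x.d.half⟩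
noncomputable def toQ (x : Ico) : ℍ[ℝ] :=
  ⟨x.a.toR + (x.c.toR - (1 - tau) * x.d.toR) / 2, x.b.toR + ((1 - tau) * x.c.toR + x.d.toR) / 2,
    -(tau * x.d.toR) / 2, tau * x.c.toR / 2⟩

theorem toQ_re (x : Ico) : x.toQ.re = x.a.toR + (x.c.toR - (1 - tau) * x.d.toR) / 2 := rfl
theorem toQ_imI (x : Ico) : x.toQ.imI = x.b.toR + ((1 - tau) * x.c.toR + x.d.toR) / 2 := rfl
theorem toQ_imJ (x : Ico) : x.toQ.imJ = -(tau * x.d.toR) / 2 := rfl
theorem toQ_imK (x : Ico) : x.toQ.imK = tau * x.c.toR / 2 := rfl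

theorem beq_iff {x y : Ico} : x.beq y = true ↔ x = y := by
  simp [beq, Zt.beq_iff, Ico.ext_iff, and_assoc]

@[simp] theorem toQ_zero : zero.toQ = 0 := by
  ext <;> simp [toQ_re, toQ_imI, toQ_imJ, toQ_imK, zero, Zt.toR]
@[simp] theorem toQ_ofInt (n : ℤ) : (ofInt n).toQ = n := by
  ext <;> simp [toQ_re, toQ_imI, toQ_imJ, toQ_imK, ofInt, Zt.toR]
@[simp] theorem toQ_add (x y : Ico) : (x.add y).toQ = x.toQ + y.toQ := by
  ext <;> simp [toQ_re, toQ_imI, toQ_imJ, toQ_imK, add] <;> ring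
@[simp] theorem toQ_sub (x y : Ico) : (x.sub y).toQ = x.toQ - y.toQ := by
  ext <;> simp [toQ_re, toQ_imI, toQ_imJ, toQ_imK, sub] <;> ring
@[simp] theorem toQ_neg (x : Ico) : x.neg.toQ = -x.toQ := by
  ext <;> simp [toQ_re, toQ_imI, toQ_imJ, toQ_imK, neg] <;> ring
@[simp] theorem toQ_conj (x : Ico) : x.conj.toQ = star x.toQ := by
  ext <;> simp [toQ_re, toQ_imI, toQ_imJ, toQ_imK, conj] <;> ring

theorem toQ_mul' (x y : Ico) : (x.mul' y).toQ = x.toQ * y.toQ := by
  have := tau_sq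
  ext <;> simp [toQ_re, toQ_imI, toQ_imJ, toQ_imK, mul'] <;> grind

@[simp] theorem toQ_mul (x y : Ico) : (x.mul y).toQ = x.toQ * y.toQ := by
  unfold mul
  cases hx : x.beq zero
  · cases hy : y.beq zero
    · exact toQ_mul' x y
    · simp [beq_iff.1 hy]
  · simp [beq_iff.1 hx]

theorem toQ_inj {x y : Ico} (h : x.toQ = y.toQ) : x = y := by
  have h1 := congrArg QuaternionAlgebra.re h
  have h2 := congrArg QuaternionAlgebra.imI h
  have h3 := congrArg QuaternionAlgebra.imJ h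
  have h4 := congrArg QuaternionAlgebra.imK h
  simp only [toQ] at h1 h2 h3 h4
  have := tau_pos.ne'
  have hd : x.d.toR = y.d.toR := mul_left_cancel₀ this (by linarith)
  have hc : x.c.toR = y.c.toR := mul_left_cancel₀ this (by linarith)
  rw [hc, hd] at h1 h2
  exact Ico.ext (Zt.toR_inj (by linarith)) (Zt.toR_inj (by linarith)) (Zt.toR_inj hc)
    (Zt.toR_inj hd)

theorem ev_iff {x : Ico} : x.ev = true ↔ x.half.add x.half = x := by
  simp [ev, Zt.ev_iff, Ico.ext_iff, add, half, and_assoc]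

theorem half_add_self (x : Ico) : (x.add x).half = x := by
  simp [add, half, Zt.half_add_self]

theorem toQ_half {x : Ico} (h : x.ev = true) : x.toQ = 2 * x.half.toQ := by
  conv_lhs => rw [← ev_iff.1 h]
  rw [toQ_add, two_mul]

theorem half_eq_of {x y : Ico} (h : x.toQ = 2 * y.toQ) : x.ev = true ∧ x.half = y := by
  obtain rfl : x = y.add y := toQ_inj (by rw [h, toQ_add, two_mul])
  exact ⟨ev_iff.2 (by rw [half_add_self]), half_add_self y⟩

def cI : Ico := ⟨⟨0, 0⟩, ⟨1, 0⟩, ⟨0, 0⟩, ⟨0, 0⟩⟩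
def cV : Ico := ⟨⟨0, 0⟩, ⟨0, 0⟩, ⟨1, 0⟩, ⟨0, 0⟩⟩

theorem toQ_cI : cI.toQ = qI := by
  ext <;> simp [toQ_re, toQ_imI, toQ_imJ, toQ_imK, cI, qI, Zt.toR]

theorem toQ_cV : cV.toQ = (⟨1 / 2, sig / 2, 0, tau / 2⟩ : ℍ[ℝ]) := by
  ext <;> simp [toQ_re, toQ_imI, toQ_imJ, toQ_imK, cV, sig_eq, Zt.toR]

theorem toQ_mem (x : Ico) : x.toQ ∈ icosians := by
  have hi : cI.toQ ∈ icosians := toQ_cI ▸ Subring.subset_closure (.inl rfl)
  have hv : cV.toQ ∈ icosians := toQ_cV ▸ Subring.subset_closure (.inr rfl)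
  have ht : (tau : ℍ[ℝ]) ∈ icosians := by
    convert sub_mem (add_mem (add_mem (one_mem _) (mul_mem hi hv)) (mul_mem hv hi)) hi using 1
    ext <;> simp [toQ_re, toQ_imI, toQ_imJ, toQ_imK, cI, cV, Zt.toR] <;> ring
  have hz : ∀ z : Zt, (z.toR : ℍ[ℝ]) ∈ icosians := fun z => by
    convert add_mem (intCast_mem icosians z.a) (mul_mem (intCast_mem icosians z.b) ht) using 1
    ext <;> simp [Zt.toR]
  convert add_mem (add_mem (add_mem (hz x.a) (mul_mem (hz x.b) hi)) (mul_mem (hz x.c) hv))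
    (mul_mem (hz x.d) (mul_mem hi hv)) using 1
  ext <;> simp [toQ_re, toQ_imI, toQ_imJ, toQ_imK, cI, cV, Zt.toR] <;> ring

theorem exists_toQ {q : ℍ[ℝ]} (hq : q ∈ icosians) : ∃ x : Ico, x.toQ = q := by
  induction hq using Subring.closure_induction with
  | mem q hq =>
    rcases hq with rfl | rfl
    · exact ⟨_, toQ_cI⟩
    · exact ⟨_, toQ_cV⟩
  | zero => exact ⟨zero, toQ_zero⟩
  | one => exact ⟨ofInt 1, by simp⟩
  | add _ _ _ _ h h' =>
    obtain ⟨x, rfl⟩ := h
    obtain ⟨y, rfl⟩ := h'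
    exact ⟨_, toQ_add x y⟩
  | neg _ _ h =>
    obtain ⟨x, rfl⟩ := h
    exact ⟨_, toQ_neg x⟩
  | mul _ _ _ _ h h' =>
    obtain ⟨x, rfl⟩ := h
    obtain ⟨y, rfl⟩ := h'
    exact ⟨_, toQ_mul x y⟩

/-- The code of `h`. -/
def H : Ico := ⟨⟨2, -2⟩, ⟨1, 0⟩, ⟨-1, 1⟩, ⟨1, -1⟩⟩
/-- The code of the conjugate of `h`. -/
def HB : Ico := ⟨⟨-1, 0⟩, ⟨-1, 0⟩, ⟨1, -1⟩, ⟨-1, 1⟩⟩

theorem toQ_H : H.toQ = icoH := by
  have := tau_sq
  ext <;> simp [toQ_re, toQ_imI, toQ_imJ, toQ_imK, H, icoH, Zt.toR, sqrt5_eq] <;> grind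

theorem toQ_HB : HB.toQ = star icoH := by
  rw [← toQ_H, ← toQ_conj]
  congr 1

theorem H_mul_HB : icoH * star icoH = 2 := by
  rw [← toQ_HB, ← toQ_H, ← toQ_mul, beq_iff.1 (by decide +kernel : (H.mul HB).beq (ofInt 2) = true)]
  simp

theorem HB_mul_H : star icoH * icoH = 2 := by
  rw [← toQ_HB, ← toQ_H, ← toQ_mul, beq_iff.1 (by decide +kernel : (HB.mul H).beq (ofInt 2) = true)]
  simp

theorem two_ne_zero_quat : (2 : ℍ[ℝ]) ≠ 0 := fun h => by
  have := congrArg QuaternionAlgebra.re h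
  rw [← one_add_one_eq_two] at this
  simp at this

theorem mem_leftIdeal {p q y : Ico} (h : p.toQ * q.toQ = 2) (h' : q.toQ * p.toQ = 2) :
    y.toQ ∈ leftIdeal p.toQ ↔ (y.mul q).ev = true := by
  constructor
  · rintro ⟨a, ha, e⟩
    obtain ⟨a, rfl⟩ := exists_toQ ha
    exact (half_eq_of (y := a) (by rw [toQ_mul, e, mul_assoc, h, mul_two, two_mul])).1
  · intro h1
    refine ⟨_, toQ_mem (y.mul q).half, mul_left_cancel₀ two_ne_zero_quat ?_⟩
    rw [← mul_assoc, ← toQ_half h1, toQ_mul, mul_assoc, h', mul_two, two_mul]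

/-! ### Units -/

/-- Enumeration of the integer vectors of a given length and small sum of squares. -/
noncomputable def enumSq (P : List ℤ → Bool) (k : ℕ) : ℕ → List ℤ → Bool :=
  Nat.rec (fun n l => (Nat.beq n 0).rec true (P l)) (fun _ r n l =>
    r n (0 :: l) && ((Nat.ble 1 n).rec true (r (n - 1) (1 :: l) && r (n - 1) (-1 :: l))) &&
      ((Nat.ble 4 n).rec true (r (n - 4) (2 :: l) && r (n - 4) (-2 :: l)))) k

theorem enumSq_sound {P : List ℤ → Bool} {k n : ℕ} {l : List ℤ} (h : enumSq P k n l = true)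
    (hn : n ≤ 4) (w : List ℤ) (hw : w.length = k) (hs : (w.map (· ^ 2)).sum = (n : ℤ)) :
    P (w.reverse ++ l) = true := by
  induction k generalizing n l w with
  | zero =>
    obtain rfl := List.length_eq_zero_iff.1 hw
    obtain rfl : n = 0 := by simpa using hs.symm
    exact h
  | succ k ih =>
    obtain ⟨a, w, rfl⟩ := List.exists_cons_of_length_eq_add_one hw
    replace h : (enumSq P k n (0 :: l) &&
      ((Nat.ble 1 n).rec true (enumSq P k (n - 1) (1 :: l) && enumSq P k (n - 1) (-1 :: l))) &&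
      ((Nat.ble 4 n).rec true (enumSq P k (n - 4) (2 :: l) && enumSq P k (n - 4) (-2 :: l)))) =
        true := h
    simp only [Bool.and_eq_true] at h
    obtain ⟨⟨h0, h1⟩, h2⟩ := h
    rw [List.map_cons, List.sum_cons] at hs
    have hw' : w.length = k := by simpa using hw
    have hnn : 0 ≤ (w.map (· ^ 2)).sum := List.sum_nonneg (by simp; intros; positivity)
    rw [List.reverse_cons, List.append_assoc, List.singleton_append]
    have hn' : (n : ℤ) ≤ 4 := by exact_mod_cast hn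
    have ha : a ≤ 2 := by nlinarith
    have ha' : -2 ≤ a := by nlinarith
    have k1 : 1 ≤ n → enumSq P k (n - 1) (1 :: l) = true ∧ enumSq P k (n - 1) (-1 :: l) = true :=
      fun h => by rwa [Nat.ble_eq_true_of_le h, Bool.and_eq_true] at h1
    have k2 : 4 ≤ n → enumSq P k (n - 4) (2 :: l) = true ∧ enumSq P k (n - 4) (-2 :: l) = true :=
      fun h => by rwa [Nat.ble_eq_true_of_le h, Bool.and_eq_true] at h2
    interval_cases a
    · exact ih (k2 (by omega)).2 (by omega) w hw' (by omega)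
    · exact ih (k1 (by omega)).2 (by omega) w hw' (by omega)
    · exact ih h0 hn w hw' (by omega)
    · exact ih (k1 (by omega)).1 (by omega) w hw' (by omega)
    · exact ih (k2 (by omega)).1 (by omega) w hw' (by omega)

/-- An icosian from twice its coordinates. -/
noncomputable def fromHalf : List ℤ → Ico
  | [a, a', b, b', c, c', d, d'] =>
    ⟨((Zt.mk a a').add ((Zt.mk d d').sg.add (Zt.mk c c').sg.sg)).half,
      ((Zt.mk b b').add ((Zt.mk d d').sg.sg.sub (Zt.mk c c').sg)).half,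
      (Zt.mk d d').sg.neg, (Zt.mk c c').sg⟩
  | _ => zero

theorem unit_induction {P : Ico → Bool} (h : enumSq (fun l => !((fromHalf l).mul
    (fromHalf l).conj).beq (ofInt 1) || P (fromHalf l)) 8 4 [] = true) {x : Ico}
    (hx : x.toQ * star x.toQ = 1) : P x = true := by
  have h1 : (x.mul x.conj).beq (ofInt 1) = true := beq_iff.2 (toQ_inj (by simpa using hx))
  have h2 : x.mul' x.conj = ofInt 1 := toQ_inj (by simpa [toQ_mul'] using hx)
  obtain ⟨⟨a, a'⟩, ⟨b, b'⟩, ⟨c, c'⟩, ⟨d, d'⟩⟩ := x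
  have h3 := congrArg (·.a.a) h2
  simp only [mul', conj, ofInt, Zt.add, Zt.sub, Zt.mul, Zt.neg, Zt.sg, Int.add_def, Int.mul_def,
    ineg_eq, Int.sub] at h3
  have := enumSq_sound h le_rfl [c + c', c', -(d + d'), -d', 2 * b' - c + d', 2 * b + c - c' + d,
    2 * a' + c' + d, 2 * a + c - d + d'] rfl (by
      simp only [List.map_cons, List.sum_cons, List.map_nil, List.sum_nil]
      push_cast
      linear_combination 4 * h3)
  have e : fromHalf ([c + c', c', -(d + d'), -d', 2 * b' - c + d', 2 * b + c - c' + d,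
    2 * a' + c' + d, 2 * a + c - d + d'].reverse ++ []) = ⟨⟨a, a'⟩, ⟨b, b'⟩, ⟨c, c'⟩, ⟨d, d'⟩⟩ := by
    simp only [List.reverse_cons, List.reverse_nil, List.nil_append, List.cons_append,
      List.append_nil, fromHalf, Zt.add, Zt.sub, Zt.neg, Zt.sg, Zt.half, ihalf_eq, Int.add_def,
      ineg_eq, Int.sub, Ico.mk.injEq, Zt.mk.injEq]
    omega
  simpa only [e, h1, Bool.not_true, Bool.false_or] using this

end Ico

end Cfsg.Agent.SporFus
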