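import Cfsg.Agent.Lib.Spor.Ico

/-!
Codes for the elements of the double cover of the Hall–Janko group.
-/

set_option autoImplicit false

namespace Cfsg.Agent.SporFus

open Cfsg.Spor Cfsg.Agent.PC Quaternion Matrix Equiv

@[ext] structure V3 where
  x : Ico
  y : Ico
  z : Ico

@[ext] structure M3 where
  r0 : V3
  r1 : V3
  r2 : V3

namespace V3

noncomputable def beq (u v : V3) : Bool := u.x.beq v.x && u.y.beq v.y && u.z.beq v.z
noncomputable def half (u : V3) : V3 := ⟨u.x.half, u.y.half, u.z.half⟩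
def add (u v : V3) : V3 := ⟨u.x.add v.x, u.y.add v.y, u.z.add v.z⟩
noncomputable def mulM (u : V3) (A : M3) : V3 :=
  ⟨((u.x.mul A.r0.x).add (u.y.mul A.r1.x)).add (u.z.mul A.r2.x),
    ((u.x.mul A.r0.y).add (u.y.mul A.r1.y)).add (u.z.mul A.r2.y),
    ((u.x.mul A.r0.z).add (u.y.mul A.r1.z)).add (u.z.mul A.r2.z)⟩
noncomputable def dot (u v : V3) : Ico :=
  ((u.x.mul v.x.conj).add (u.y.mul v.y.conj)).add (u.z.mul v.z.conj)
noncomputable def inL (u : V3) : Bool :=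
  (((u.x.add u.y).add u.z).mul Ico.H).ev && ((u.x.sub u.y).mul Ico.HB).ev &&
    ((u.y.sub u.z).mul Ico.HB).ev
noncomputable def toV (u : V3) : Fin 3 → ℍ[ℝ] := ![u.x.toQ, u.y.toQ, u.z.toQ]

theorem beq_iff {u v : V3} : u.beq v = true ↔ u = v := by
  simp [beq, Ico.beq_iff, V3.ext_iff, and_assoc]

theorem toV_inj {u v : V3} (h : u.toV = v.toV) : u = v :=
  V3.ext (Ico.toQ_inj (congrFun h 0)) (Ico.toQ_inj (congrFun h 1)) (Ico.toQ_inj (congrFun h 2))

theorem toV_add (u v : V3) : (u.add v).toV = u.toV + v.toV := by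
  funext i; fin_cases i <;> simp [toV, add]

theorem half_add_self (u : V3) : (u.add u).half = u := by
  simp [half, add, Ico.half_add_self]

theorem qip_toV (u v : V3) : qip u.toV v.toV = (u.dot v).toQ := by
  simp [qip, Fin.sum_univ_three, toV, dot]

theorem inL_iff {u : V3} : u.inL = true ↔ u.toV ∈ icoLeech := by
  have h1 : ∀ y : Ico, y.toQ ∈ leftIdeal icoH ↔ (y.mul Ico.HB).ev = true := fun y => by
    rw [← Ico.toQ_H]
    refine Ico.mem_leftIdeal ?_ ?_ <;> rw [Ico.toQ_H, Ico.toQ_HB]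
    exacts [Ico.H_mul_HB, Ico.HB_mul_H]
  have h2 : ∀ y : Ico, y.toQ ∈ leftIdeal (star icoH) ↔ (y.mul Ico.H).ev = true := fun y => by
    rw [← Ico.toQ_HB]
    refine Ico.mem_leftIdeal ?_ ?_ <;> rw [Ico.toQ_H, Ico.toQ_HB]
    exacts [Ico.HB_mul_H, Ico.H_mul_HB]
  simp only [inL, Bool.and_eq_true, ← h1, ← h2, Ico.toQ_sub, Ico.toQ_add]
  refine ⟨fun h => ⟨fun t => ?_, h.1.2, h.2, h.1.1⟩, fun h => ⟨⟨h.2.2.2, h.2.1⟩, h.2.2.1⟩⟩
  fin_cases t <;> exact Ico.toQ_mem _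

theorem exists_toV {v : Fin 3 → ℍ[ℝ]} (h : ∀ t, v t ∈ icosians) : ∃ u : V3, u.toV = v := by
  obtain ⟨x, hx⟩ := Ico.exists_toQ (h 0)
  obtain ⟨y, hy⟩ := Ico.exists_toQ (h 1)
  obtain ⟨z, hz⟩ := Ico.exists_toQ (h 2)
  exact ⟨⟨x, y, z⟩, by funext i; fin_cases i <;> simpa [toV]⟩

end V3

namespace M3

noncomputable def beq (A B : M3) : Bool := A.r0.beq B.r0 && A.r1.beq B.r1 && A.r2.beq B.r2
noncomputable def mul (A B : M3) : M3 :=
  ⟨(B.r0.mulM A).half, (B.r1.mulM A).half, (B.r2.mulM A).half⟩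
noncomputable def toM (A : M3) : Matrix (Fin 3) (Fin 3) ℍ[ℝ] :=
  Matrix.of ![A.r0.toV, A.r1.toV, A.r2.toV]
/-- The matrix with a given code. -/
noncomputable def hm (A : M3) : Matrix (Fin 3) (Fin 3) ℍ[ℝ] := (1 / 2 : ℝ) • A.toM

theorem beq_iff {A B : M3} : A.beq B = true ↔ A = B := by
  simp [beq, V3.beq_iff, M3.ext_iff, and_assoc]

theorem toV_mulM (u : V3) (A : M3) : (u.mulM A).toV = u.toV ᵥ* A.toM := by
  funext i
  fin_cases i <;> simp [V3.toV, V3.mulM, toM, vecMul, dotProduct, Fin.sum_univ_three]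

theorem toM_eq (A : M3) : A.toM = (2 : ℝ) • A.hm := by rw [hm, smul_smul]; simp

theorem hm_inj {A B : M3} (h : A.hm = B.hm) : A = B := by
  have : A.toM = B.toM := by rw [toM_eq, toM_eq, h]
  exact M3.ext (V3.toV_inj (congrFun this 0)) (V3.toV_inj (congrFun this 1))
    (V3.toV_inj (congrFun this 2))

theorem mul_eq {A B C : M3} (h : C.hm = B.hm * A.hm) : A.mul B = C := by
  have h1 : B.toM * A.toM = C.toM + C.toM := by
    rw [toM_eq, toM_eq, toM_eq, h, smul_mul_smul_comm, ← add_smul]; norm_num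
  have h2 : ∀ i, B.toM i ᵥ* A.toM = C.toM i + C.toM i := fun i => congrFun h1 i
  refine M3.ext ?_ ?_ ?_
  · exact (congrArg V3.half (V3.toV_inj ((toV_mulM _ _).trans
      ((h2 0).trans (V3.toV_add _ _).symm)))).trans (V3.half_add_self _)
  · exact (congrArg V3.half (V3.toV_inj ((toV_mulM _ _).trans
      ((h2 1).trans (V3.toV_add _ _).symm)))).trans (V3.half_add_self _)
  · exact (congrArg V3.half (V3.toV_inj ((toV_mulM _ _).trans
      ((h2 2).trans (V3.toV_add _ _).symm)))).trans (V3.half_add_self _)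

end M3

/-! ### The action by matrices -/

/-- `g` acts by right multiplication with `M`. -/
def Act (g : Perm icoLeech) (M : Matrix (Fin 3) (Fin 3) ℍ[ℝ]) : Prop :=
  ∀ x : icoLeech, (g x).1 = x.1 ᵥ* M

theorem Act.mul {g h : Perm icoLeech} {M N : Matrix (Fin 3) (Fin 3) ℍ[ℝ]} (hg : Act g M)
    (hh : Act h N) : Act (g * h) (N * M) := fun x => by
  rw [Perm.mul_apply, hg, hh, vecMul_vecMul]

theorem Act.uniq {g h : Perm icoLeech} {M : Matrix (Fin 3) (Fin 3) ℍ[ℝ]} (hg : Act g M)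
    (hh : Act h M) : g = h := Perm.ext fun x => Subtype.ext ((hg x).trans (hh x).symm)

theorem two_single_mem (i : Fin 3) : Pi.single i (2 : ℍ[ℝ]) ∈ icoLeech := by
  have h0 : V3.inL ⟨.ofInt 2, .zero, .zero⟩ = true := by decide +kernel
  have h1 : V3.inL ⟨.zero, .ofInt 2, .zero⟩ = true := by decide +kernel
  have h2 : V3.inL ⟨.zero, .zero, .ofInt 2⟩ = true := by decide +kernel
  fin_cases i
  · convert V3.inL_iff.1 h0 using 1
    funext j; fin_cases j <;> simp [V3.toV]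
  · convert V3.inL_iff.1 h1 using 1
    funext j; fin_cases j <;> simp [V3.toV]
  · convert V3.inL_iff.1 h2 using 1
    funext j; fin_cases j <;> simp [V3.toV]

theorem Act.row {g : Perm icoLeech} {M : Matrix (Fin 3) (Fin 3) ℍ[ℝ]} (hg : Act g M) (i : Fin 3) :
    (g ⟨_, two_single_mem i⟩).1 = (2 : ℝ) • M i := by
  rw [hg, single_vecMul]
  funext j
  simp [two_mul, two_smul]

theorem Act.eq {g : Perm icoLeech} {M N : Matrix (Fin 3) (Fin 3) ℍ[ℝ]} (hM : Act g M)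
    (hN : Act g N) : M = N := funext fun i =>
  smul_right_injective _ (two_ne_zero (α := ℝ)) ((hM.row i).symm.trans (hN.row i))

theorem Act.exists_code {g : Perm icoLeech} {M : Matrix (Fin 3) (Fin 3) ℍ[ℝ]} (hg : Act g M) :
    ∃ A : M3, A.hm = M := by
  have h : ∀ i, ∃ u : V3, u.toV = (2 : ℝ) • M i := fun i =>
    V3.exists_toV (hg.row i ▸ (g ⟨_, two_single_mem i⟩).2.1)
  obtain ⟨u, hu⟩ := h 0
  obtain ⟨v, hv⟩ := h 1
  obtain ⟨w, hw⟩ := h 2
  refine ⟨⟨u, v, w⟩, ?_⟩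
  have : M3.toM ⟨u, v, w⟩ = (2 : ℝ) • M := by
    funext i; fin_cases i <;> simpa [M3.toM]
  rw [M3.hm, this, smul_smul]; simp

/-- The matrix of a reflection. -/
noncomputable def reflM (r : Fin 3 → ℍ[ℝ]) : Matrix (Fin 3) (Fin 3) ℍ[ℝ] :=
  1 - (1 / 2 : ℝ) • vecMulVec (star r) r

theorem qrefl_eq (r x : Fin 3 → ℍ[ℝ]) : qrefl r x = x ᵥ* reflM r := by
  funext t
  rw [reflM, vecMul_sub, vecMul_one]
  simp [qrefl, qip, vecMul, dotProduct, vecMulVec_apply, Finset.sum_mul, Finset.smul_sum,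
    mul_assoc]

theorem star_reflM (r : Fin 3 → ℍ[ℝ]) : star (reflM r) = reflM r := by
  ext1 i j
  simp [reflM, star_apply, vecMulVec_apply, one_apply, eq_comm, apply_ite star]

theorem reflM_mul_self {r : Fin 3 → ℍ[ℝ]} (h : qip r r = 4) : reflM r * reflM r = 1 := by
  have h1 : vecMulVec (star r) r * vecMulVec (star r) r = (4 : ℝ) • vecMulVec (star r) r := by
    ext1 i j
    have : ∑ t, star (r i) * r t * (star (r t) * r j) = star (r i) * qip r r * r j := by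
      simp [qip, Finset.mul_sum, Finset.sum_mul, mul_assoc]
    simp only [mul_apply, vecMulVec_apply, Pi.star_apply, this, h, Matrix.smul_apply]
    rw [show (4 : ℍ[ℝ]) = algebraMap ℝ ℍ[ℝ] 4 from (map_ofNat _ 4).symm, ← Algebra.commutes,
      mul_assoc, Algebra.smul_def]
  rw [reflM, sub_mul, mul_sub, mul_sub, smul_mul_smul_comm, h1, smul_smul, one_mul, mul_one,
    one_mul]
  module

theorem exists_act {g : Perm icoLeech} (hg : g ∈ twoJ2) :
    ∃ M, M * star M = 1 ∧ star M * M = 1 ∧ Act g M := by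
  induction hg using Subgroup.closure_induction with
  | mem g hg =>
    obtain ⟨r, hr, h⟩ := hg
    refine ⟨reflM r, ?_, ?_, fun x => (h x).trans (qrefl_eq _ _)⟩ <;>
      rw [star_reflM, reflM_mul_self hr]
  | one => exact ⟨1, by simp, by simp, fun x => by simp⟩
  | mul g h _ _ ihg ihh =>
    obtain ⟨M, h1, h2, hM⟩ := ihg
    obtain ⟨N, h3, h4, hN⟩ := ihh
    refine ⟨N * M, ?_, ?_, hM.mul hN⟩
    · rw [star_mul, mul_assoc, ← mul_assoc M, h1, one_mul, h3]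
    · rw [star_mul, mul_assoc, ← mul_assoc (star N), h4, one_mul, h2]
  | inv g _ ih =>
    obtain ⟨M, h1, h2, hM⟩ := ih
    refine ⟨star M, by rwa [star_star], by rwa [star_star], fun x => ?_⟩
    have := hM (g⁻¹ x)
    rw [show g (g⁻¹ x) = x from g.apply_symm_apply x] at this
    rw [this, vecMul_vecMul, h1, vecMul_one]

/-- `A` codes `g`. -/
def RepJ (A : M3) (g : twoJ2) : Prop := Act g.1 A.hm

theorem exists_repJ (g : twoJ2) : ∃ A, RepJ A g ∧ A.hm * star A.hm = 1 := by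
  obtain ⟨M, h1, -, hM⟩ := exists_act g.2
  obtain ⟨A, rfl⟩ := hM.exists_code
  exact ⟨A, hM, h1⟩

theorem soundJ : Sound RepJ M3.mul M3.beq where
  rep_mul {a b g h} ha hb := by
    obtain ⟨c, hc, -⟩ := exists_repJ (g * h)
    rwa [M3.mul_eq (Act.eq hc (Act.mul ha hb))]
  eq_of_beq := M3.beq_iff.1
  uniq ha hb := Subtype.ext (Act.uniq ha hb)
  beq_of ha hb := M3.beq_iff.2 (M3.hm_inj (Act.eq ha hb))

/-! ### Reflections -/

theorem leftIdeal_sub_mul {q a x y : ℍ[ℝ]} (hx : x ∈ leftIdeal q) (hy : y ∈ leftIdeal q)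
    (ha : a ∈ icosians) : x - a * y ∈ leftIdeal q := by
  obtain ⟨b, hb, rfl⟩ := hx
  obtain ⟨c, hc, rfl⟩ := hy
  exact ⟨b - a * c, sub_mem hb (mul_mem ha hc), by noncomm_ring⟩

theorem icoLeech_sub_mul {x r : Fin 3 → ℍ[ℝ]} {a : ℍ[ℝ]} (hx : x ∈ icoLeech) (hr : r ∈ icoLeech)
    (ha : a ∈ icosians) : (fun t => x t - a * r t) ∈ icoLeech := by
  refine ⟨fun t => sub_mem (hx.1 t) (mul_mem ha (hr.1 t)), ?_, ?_, ?_⟩
  · convert leftIdeal_sub_mul hx.2.1 hr.2.1 ha using 1; noncomm_ring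
  · convert leftIdeal_sub_mul hx.2.2.1 hr.2.2.1 ha using 1; noncomm_ring
  · convert leftIdeal_sub_mul hx.2.2.2 hr.2.2.2 ha using 1; noncomm_ring

/-- Generators of the lattice. -/
def gL1 : V3 := ⟨.HB, .HB, Ico.HB.neg⟩
def gL2 : V3 := ⟨.H, .H, (Ico.H.add .H).neg⟩
def gL3 : V3 := ⟨.zero, Ico.H.neg, .H⟩

theorem icoLeech_param {x : Fin 3 → ℍ[ℝ]} (hx : x ∈ icoLeech) : ∃ a ∈ icosians, ∃ b ∈ icosians,
    ∃ c ∈ icosians, ∀ t, x t = c * gL1.toV t + b * gL2.toV t + a * gL3.toV t := by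
  obtain ⟨h0, ⟨a, ha, h1⟩, ⟨b, hb, h2⟩, ⟨c, hc, h3⟩⟩ := hx
  have h4 : x 0 * star icoH * icoH = x 0 + x 0 := by rw [mul_assoc, Ico.HB_mul_H, mul_two]
  have e0 : x 0 = c * star icoH + (a + a + b - x 0 * star icoH) * icoH := by
    rw [sub_mul, add_mul, add_mul, h4, ← h1, ← h2, ← h3]; abel
  refine ⟨a, ha, a + a + b - x 0 * star icoH, sub_mem (add_mem (add_mem ha ha) hb)
    (mul_mem (h0 0) (Ico.toQ_HB ▸ Ico.toQ_mem _)), c, hc, fun t => ?_⟩
  generalize a + a + b - x 0 * star icoH = b' at e0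
  fin_cases t <;> simp [V3.toV, gL1, gL2, gL3, Ico.toQ_H, Ico.toQ_HB]
  · exact e0
  · rw [← e0, ← h1]; abel
  · rw [show x 2 = c * star icoH - x 0 - x 0 + a * icoH by rw [← h1, ← h3]; abel, e0]
    noncomm_ring

/-- The code of a reflection. -/
noncomputable def reflC (r : V3) : M3 :=
  ⟨⟨(Ico.ofInt 2).sub (r.x.conj.mul r.x), (r.x.conj.mul r.y).neg, (r.x.conj.mul r.z).neg⟩,
    ⟨(r.y.conj.mul r.x).neg, (Ico.ofInt 2).sub (r.y.conj.mul r.y), (r.y.conj.mul r.z).neg⟩,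
    ⟨(r.z.conj.mul r.x).neg, (r.z.conj.mul r.y).neg, (Ico.ofInt 2).sub (r.z.conj.mul r.z)⟩⟩

theorem hm_reflC (r : V3) : (reflC r).hm = reflM r.toV := by
  have h2 : (2⁻¹ : ℝ) • (2 : ℍ[ℝ]) = 1 := by
    rw [← one_add_one_eq_two (R := ℍ[ℝ]), ← two_smul ℝ, smul_smul]; simp
  ext1 i j
  fin_cases i <;> fin_cases j <;>
    simp [M3.hm, M3.toM, reflC, reflM, V3.toV, smul_sub, h2]

/-- The test for a reflection. -/
noncomputable def reflOK (r : V3) : Bool :=
  r.inL && (r.dot r).beq (.ofInt 4) && (gL1.dot r).ev && (gL2.dot r).ev && (gL3.dot r).ev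

theorem exists_refl {r : V3} (h : reflOK r = true) : ∃ g, RepJ (reflC r) g := by
  simp only [reflOK, Bool.and_eq_true, V3.inL_iff, Ico.beq_iff] at h
  obtain ⟨⟨⟨⟨h1, h2⟩, h3⟩, h4⟩, h5⟩ := h
  have h6 : qip r.toV r.toV = 4 := by rw [V3.qip_toV, h2]; simp
  have h7 : ∀ x ∈ icoLeech, qrefl r.toV x ∈ icoLeech := fun x hx => by
    refine icoLeech_sub_mul hx h1 ?_
    obtain ⟨a, ha, b, hb, c, hc, h⟩ := icoLeech_param hx
    have : qip x r.toV = c * qip gL1.toV r.toV + b * qip gL2.toV r.toV + a * qip gL3.toV r.toV := by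
      simp only [qip, h, add_mul, mul_assoc, Finset.sum_add_distrib, Finset.mul_sum]
    rw [this, V3.qip_toV, V3.qip_toV, V3.qip_toV, Ico.toQ_half h3, Ico.toQ_half h4,
      Ico.toQ_half h5]
    convert add_mem (add_mem (mul_mem hc (Ico.toQ_mem (gL1.dot r).half))
      (mul_mem hb (Ico.toQ_mem (gL2.dot r).half))) (mul_mem ha (Ico.toQ_mem (gL3.dot r).half))
      using 1
    simp only [two_mul, mul_add]
    module
  have h8 : ∀ x, qrefl r.toV (qrefl r.toV x) = x := fun x => by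
    rw [qrefl_eq, qrefl_eq, vecMul_vecMul, reflM_mul_self h6, vecMul_one]
  let f : Perm icoLeech := ⟨fun x => ⟨_, h7 x.1 x.2⟩, fun x => ⟨_, h7 x.1 x.2⟩,
    fun x => Subtype.ext (h8 x.1), fun x => Subtype.ext (h8 x.1)⟩
  exact ⟨⟨f, Subgroup.subset_closure ⟨⟨_, h1⟩, h6, fun _ => rfl⟩⟩, fun x => by
    rw [hm_reflC, ← qrefl_eq]; rfl⟩

theorem inC_refl {l : List V3} (h : allL reflOK l = true) : InC RepJ (mapL reflC l) ⊤ := by
  induction l with
  | nil => exact InC.nil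
  | cons r l ih =>
    rw [allL_iff, List.forall_mem_cons, ← allL_iff] at h
    obtain ⟨g, hg⟩ := exists_refl h.1
    exact (ih h.2).cons trivial hg

end Cfsg.Agent.SporFus
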