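import Cfsg.Agent.Lib.Spor.J2Data

/-! The `2`-fusion system of the Hall–Janko group. -/

set_option autoImplicit false

namespace Cfsg.Agent.SporFus.J2

open Cfsg.Spor Cfsg.Agent.PC Cfsg.Agent.Fus Quaternion Matrix Equiv

theorem half_two : (2⁻¹ : ℝ) • (2 : ℍ[ℝ]) = 1 := by
  rw [← one_add_one_eq_two (R := ℍ[ℝ]), ← two_smul ℝ, smul_smul]; simp

theorem hm_dg (a b c : Ico) : (dg (a.add a) (b.add b) (c.add c)).hm =
    diagonal ![a.toQ, b.toQ, c.toQ] := by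
  have : ∀ q : ℍ[ℝ], (2⁻¹ : ℝ) • q + (2⁻¹ : ℝ) • q = q := fun q => by module
  ext1 i j
  fin_cases i <;> fin_cases j <;> simp [M3.hm, M3.toM, dg, V3.toV, this]

theorem hm_sg (a b c : ℤ) : (sg a b c).hm = diagonal fun i => ((![a, b, c] i : ℤ) : ℍ[ℝ]) := by
  ext1 i j
  fin_cases i <;> fin_cases j <;>
    simp [M3.hm, M3.toM, sg, dg, V3.toV, ← smul_mul_assoc, half_two]

theorem hm_SW : SW.hm = !![1, 0, 0; 0, 0, -1; 0, -1, 0] := by
  ext1 i j
  fin_cases i <;> fin_cases j <;> simp [M3.hm, M3.toM, SW, V3.toV, half_two]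

theorem rep_one : RepJ (sg 1 1 1) 1 := fun x => by
  have : (sg 1 1 1).hm = 1 := by
    rw [hm_sg, ← diagonal_one]; congr 1; funext i; fin_cases i <;> simp
  simp [this]

theorem mem_center {m : twoJ2} (hm : RepJ (sg (-1) (-1) (-1)) m) :
    m ∈ Subgroup.center twoJ2 := by
  have : (sg (-1) (-1) (-1)).hm = -1 := by
    rw [hm_sg, ← diagonal_one, diagonal_neg]; congr 1; funext i; fin_cases i <;> simp
  refine Subgroup.mem_center_iff.2 fun g => ?_
  obtain ⟨A, hA, -⟩ := exists_repJ g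
  have h1 := Act.mul hA hm
  have h2 := Act.mul hm hA
  rw [this] at h1 h2
  rw [neg_one_mul] at h1
  rw [mul_neg_one] at h2
  exact Subtype.ext (h1.uniq h2)

theorem conj_sign {g r : twoJ2} {M : Matrix (Fin 3) (Fin 3) ℍ[ℝ]} (hA : Act g.1 M)
    {a b c a' b' c' : ℤ} (hr : RepJ (sg a b c) r) (hd : RepJ (sg a' b' c') (g * r * g⁻¹))
    (i j : Fin 3) (h : ![a, b, c] i ≠ ![a', b', c'] j) : M i j = 0 := by
  have h1 := Act.mul hA hr
  have h2 := Act.mul hd hA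
  rw [← Subgroup.coe_mul, inv_mul_cancel_right, Subgroup.coe_mul] at h2
  have h3 := congrFun (congrFun (h1.eq h2) i) j
  rw [hm_sg, hm_sg, diagonal_mul, mul_diagonal, ← Int.cast_comm, ← sub_eq_zero, ← sub_mul,
    ← Int.cast_sub] at h3
  refine (mul_eq_zero.1 h3).resolve_left fun h4 => h (sub_eq_zero.1 ?_)
  have := congrArg QuaternionAlgebra.re h4
  rw [Quaternion.re_intCast] at this
  exact_mod_cast this

theorem mono {g r₁ r₂ : twoJ2} {M : Matrix (Fin 3) (Fin 3) ℍ[ℝ]} (hA : Act g.1 M)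
    (hM : M * star M = 1) (h₁ : RepJ (sg (-1) 1 1) r₁) (h₂ : RepJ (sg 1 (-1) 1) r₂)
    (h₃ : ∃ c ∈ ZU, RepJ c (g * r₁ * g⁻¹)) (h₄ : ∃ c ∈ VV, RepJ c (g * r₂ * g⁻¹)) :
    (M 0 1 = 0 ∧ M 0 2 = 0 ∧ M 1 0 = 0 ∧ M 2 0 = 0) ∧
      (M 1 2 = 0 ∧ M 2 1 = 0 ∨ M 1 1 = 0 ∧ M 2 2 = 0) := by
  have e : ∀ i j, M i 0 * star (M j 0) + M i 1 * star (M j 1) + M i 2 * star (M j 2) =
      (1 : Matrix (Fin 3) (Fin 3) ℍ[ℝ]) i j := fun i j => by
    rw [← hM, mul_apply, Fin.sum_univ_three]; rfl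
  have row : ∀ i, M i 0 = 0 → M i 1 = 0 → M i 2 = 0 → False := fun i h0 h1 h2 => by
    simpa [h0, h1, h2] using e i i
  obtain ⟨a, b, ha, hb, h₃⟩ : ∃ a b : ℤ, (a = 1 ∨ a = -1) ∧ (b = 1 ∨ b = -1) ∧
      RepJ (sg a b b) (g * r₁ * g⁻¹) := by
    obtain ⟨c, hc, h⟩ := h₃
    simp only [ZU, List.mem_cons, List.not_mem_nil, or_false] at hc
    rcases hc with rfl | rfl | rfl | rfl <;> exact ⟨_, _, by simp, by simp, h⟩
  obtain ⟨a', b', c', hb', hc', h₄⟩ : ∃ a b c : ℤ, (b = 1 ∨ b = -1) ∧ (c = 1 ∨ c = -1) ∧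
      RepJ (sg a b c) (g * r₂ * g⁻¹) := by
    obtain ⟨c, hc, h⟩ := h₄
    simp only [VV, List.mem_cons, List.not_mem_nil, or_false] at hc
    rcases hc with rfl | rfl | rfl | rfl | rfl | rfl | rfl | rfl <;>
      exact ⟨_, _, _, by simp, by simp, h⟩
  have k := conj_sign hA h₁ h₃
  have k' := conj_sign hA h₂ h₄
  obtain rfl : b = 1 := hb.resolve_right (by
    rintro rfl
    have k1 := k 1 1 (by simp)
    have k2 := k 1 2 (by simp)
    have k3 := k 2 1 (by simp)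
    have k4 := k 2 2 (by simp)
    have := e 1 2
    simp only [k1, k2, zero_mul, add_zero, ne_eq, Fin.reduceEq, not_false_eq_true, one_apply_ne,
      mul_eq_zero, star_eq_zero] at this
    exact this.elim (row 1 · k1 k2) (row 2 · k3 k4))
  have k1 := k 0 1 (by simp)
  have k2 := k 0 2 (by simp)
  obtain rfl : a = -1 := ha.resolve_left (by
    rintro rfl
    exact row 0 (k 0 0 (by simp)) k1 k2)
  have k3 := k 1 0 (by simp)
  have k4 := k 2 0 (by simp)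
  refine ⟨⟨k1, k2, k3, k4⟩, ?_⟩
  rcases hb' with rfl | rfl <;> rcases hc' with rfl | rfl
  · exact (row 1 k3 (k' 1 1 (by simp)) (k' 1 2 (by simp))).elim
  · exact .inr ⟨k' 1 1 (by simp), k' 2 2 (by simp)⟩
  · exact .inl ⟨k' 1 2 (by simp), k' 2 1 (by simp)⟩
  · exact (row 2 k4 (k' 2 1 (by simp)) (k' 2 2 (by simp))).elim

theorem two_dvd_of_mem {q : ℍ[ℝ]} (h1 : q ∈ leftIdeal icoH) (h2 : q ∈ leftIdeal (star icoH)) :
    ∃ x : Ico, q = 2 * x.toQ := by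
  obtain ⟨a, ha, e1⟩ := h1
  obtain ⟨b, hb, e2⟩ := h2
  have hH : icoH ∈ icosians := Ico.toQ_H ▸ Ico.toQ_mem _
  have hB : star icoH ∈ icosians := Ico.toQ_HB ▸ Ico.toQ_mem _
  have hq : q ∈ icosians := e1 ▸ mul_mem ha hH
  obtain ⟨x, hx⟩ := Ico.exists_toQ (sub_mem (mul_mem (add_mem ha hb) (add_mem hH hB))
    (add_mem hq hq))
  refine ⟨x, ?_⟩
  have h3 : q * (icoH + star icoH) = 2 * (a + b) := by
    rw [mul_add]
    conv_lhs => rw [show q * icoH = b * 2 by rw [e2, mul_assoc, Ico.HB_mul_H],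
      show q * star icoH = a * 2 by rw [e1, mul_assoc, Ico.H_mul_HB]]
    noncomm_ring
  have h4 : (icoH + star icoH) * (icoH + star icoH) = 5 := by
    rw [← Ico.toQ_HB, ← Ico.toQ_H, ← Ico.toQ_add, ← Ico.toQ_mul, Ico.beq_iff.1 (by decide +kernel :
      ((Ico.H.add .HB).mul (Ico.H.add .HB)).beq (.ofInt 5) = true)]
    simp
  rw [hx, mul_sub, ← mul_assoc, ← h3, mul_assoc, h4]
  noncomm_ring

theorem leftIdeal_neg {q x : ℍ[ℝ]} (hx : -x ∈ leftIdeal q) : x ∈ leftIdeal q := by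
  obtain ⟨a, ha, e⟩ := hx
  exact ⟨-a, neg_mem ha, by rw [neg_mul, ← e, neg_neg]⟩

theorem diag {g : twoJ2} {M : Matrix (Fin 3) (Fin 3) ℍ[ℝ]} (hA : Act g.1 M)
    (hM : M * star M = 1) (h1 : M 0 1 = 0) (h2 : M 0 2 = 0) (h3 : M 1 0 = 0) (h4 : M 2 0 = 0)
    (h5 : M 1 2 = 0) (h6 : M 2 1 = 0) {x : twoJ2} (hx : RepJ XX x) :
    ∃ y ∈ ({1, x, x * x} : Set twoJ2), ∃ c ∈ LU, RepJ c (g * y) := by
  have hd : ∀ i, ∃ q : Ico, M i i = q.toQ := fun i => by
    have h := (g.1 ⟨_, two_single_mem i⟩).2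
    rw [hA.row] at h
    obtain ⟨-, k1, k2, k3⟩ := h
    obtain ⟨q, hq⟩ := two_dvd_of_mem (q := (2 : ℝ) • M i i) (by
      fin_cases i
      · simpa [h1] using k1
      · simpa [h5] using k2
      · exact leftIdeal_neg (by simpa [h6] using k2)) (by
      fin_cases i <;> simpa [h1, h2, h3, h4, h5, h6] using k3)
    exact ⟨q, mul_left_cancel₀ Ico.two_ne_zero_quat (by rw [← hq, two_smul, two_mul])⟩
  obtain ⟨a, ha⟩ := hd 0
  obtain ⟨b, hb⟩ := hd 1
  obtain ⟨c, hc⟩ := hd 2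
  have hM' : M = diagonal ![a.toQ, b.toQ, c.toQ] := by
    ext1 i j
    fin_cases i <;> fin_cases j <;> simp [*]
  have hu : ∀ i, M i i * star (M i i) = 1 := fun i => by
    have := congrFun (congrFun hM i) i
    rw [hM'] at this ⊢
    simpa [star_eq_conjTranspose] using this
  have key : ∀ v : V3, v.inL = true → V3.inL ⟨v.x.mul a, v.y.mul b, v.z.mul c⟩ = true :=
    fun v hv => by
      have := (g.1 ⟨_, V3.inL_iff.1 hv⟩).2
      rw [hA, hM'] at this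
      rw [V3.inL_iff]
      convert this using 1
      funext i
      fin_cases i <;> simp [V3.toV, vecMul_diagonal]
  have z : ∀ q : Ico, Ico.zero.mul q = .zero := fun q => Ico.toQ_inj (by simp)
  have k1 := key ⟨.H, .H, .zero⟩ (by decide +kernel)
  have k2 := key ⟨.zero, .H, .H⟩ (by decide +kernel)
  have k3 := key ⟨.HB, .HB, Ico.HB.neg⟩ (by decide +kernel)
  have k4 := key ⟨.H, .zero, .H⟩ (by decide +kernel)
  simp only [z] at k1 k2 k4
  have hU : ∀ q : Ico, q.toQ * star q.toQ = 1 → icoH * q.toQ ∈ leftIdeal icoH → q ∈ U24 :=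
    fun q hq h => by
      have := Ico.unit_induction
        (P := fun q => !((Ico.H.mul q).mul .HB).ev || memC Ico.beq q U24) h_units hq
      rw [← Ico.toQ_H, ← Ico.toQ_mul, Ico.mem_leftIdeal (q := .HB)
        (by rw [Ico.toQ_H, Ico.toQ_HB, Ico.H_mul_HB])
        (by rw [Ico.toQ_H, Ico.toQ_HB, Ico.HB_mul_H])] at h
      simp only [h, Bool.not_true, Bool.false_or, memC, anyL_iff, Ico.beq_iff] at this
      obtain ⟨_, h, rfl⟩ := this
      exact h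
  have := allL_iff.1 (allL_iff.1 h_diag a (hU a (ha ▸ hu 0) (by
    simpa [V3.toV, Ico.toQ_H] using (V3.inL_iff.1 k4).2.1))) b (hU b (hb ▸ hu 1) (by
    simpa [V3.toV, Ico.toQ_H] using (V3.inL_iff.1 k1).2.2.1))
  rw [k1, Bool.not_true, Bool.false_or] at this
  have := allL_iff.1 this c (hU c (hc ▸ hu 2) (leftIdeal_neg (by
    simpa [V3.toV, Ico.toQ_H] using (V3.inL_iff.1 k4).2.2.1)))
  rw [k2, k3, Bool.not_true, Bool.false_or, Bool.false_or, anyL_iff] at this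
  obtain ⟨y, hy, h⟩ := this
  have hg : RepJ (dg (a.add a) (b.add b) (c.add c)) g := by rwa [RepJ, hm_dg, ← hM']
  simp only [List.mem_cons, List.not_mem_nil, or_false] at hy
  rcases hy with rfl | rfl | rfl
  · exact ⟨1, by simp, _, soundJ.mem_of h, soundJ.rep_mul hg rep_one⟩
  · exact ⟨x, by simp, _, soundJ.mem_of h, soundJ.rep_mul hg hx⟩
  · exact ⟨x * x, by simp, _, soundJ.mem_of h, soundJ.rep_mul hg (soundJ.rep_mul hx hx)⟩

theorem main {g r₁ r₂ s x : twoJ2} (h₁ : RepJ (sg (-1) 1 1) r₁) (h₂ : RepJ (sg 1 (-1) 1) r₂)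
    (hs : RepJ SW s) (hx : RepJ XX x)
    (h₃ : ∃ c ∈ ZU, RepJ c (g * r₁ * g⁻¹)) (h₄ : ∃ c ∈ VV, RepJ c (g * r₂ * g⁻¹)) :
    ∃ t ∈ ({1, s} : Set twoJ2), ∃ y ∈ ({1, x, x * x} : Set twoJ2), ∃ c ∈ LU,
      RepJ c (t * g * y) := by
  obtain ⟨M, hM, -, hA⟩ := exists_act g.2
  obtain ⟨⟨k1, k2, k3, k4⟩, ⟨k5, k6⟩ | ⟨k5, k6⟩⟩ := mono hA hM h₁ h₂ h₃ h₄
  · exact ⟨1, by simp, by simpa using diag hA hM k1 k2 k3 k4 k5 k6 hx⟩
  · obtain ⟨N, hN, -, hB⟩ := exists_act (s * g).2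
    have e := hB.eq (Act.mul hs hA)
    rw [hm_SW] at e
    refine ⟨s, by simp, diag hB hN ?_ ?_ ?_ ?_ ?_ ?_ hx⟩ <;>
      simp [mul_apply, Fin.sum_univ_three, *]

theorem valid₀ : InC RepJ (CP :: SW12 :: gsU) ⊤ := soundJ.build h_bp (inC_refl h_refs)

theorem chain_valid {H : Type*} [Group H] {C : Type} {Rep : C → H → Prop} {mul : C → C → C}
    {beq : C → C → Bool} (hs : Sound Rep mul beq) {st : List (C × List C × List C)}
    {Lf gs L : List C} (h : chainC mul beq st Lf gs L = true) (hv : InC Rep (st.map Prod.fst) ⊤)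
    (hL : InC Rep L ⊤) : InC Rep Lf ⊤ := by
  induction st generalizing gs L with
  | nil =>
    have : L = Lf := by
      rw [← List.forall₂_eq_eq_eq]
      exact (all2C_iff.1 h).imp fun _ _ => hs.eq_of_beq
    exact this ▸ hL
  | cons t st ih =>
    obtain ⟨a, L', cs⟩ := t
    replace h : (all2C (fun u c => beq (mul a u) c) L L' && normC mul beq a gs cs L &&
      memC beq (mul a a) L && chainC mul beq st Lf (a :: gs) (L' ++ L)) = true := h
    simp only [Bool.and_eq_true, all2C_iff] at h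
    obtain ⟨σ, -, hσ⟩ := hv a List.mem_cons_self
    refine ih h.2 (fun c hc => hv c (List.mem_cons_of_mem _ hc)) (InC.append (fun d hd => ?_) hL)
    obtain ⟨c, hc, h'⟩ := forall₂_right h.1.1.1 hd
    obtain ⟨u, -, h⟩ := hL c hc
    exact ⟨_, trivial, hs.eq_of_beq h' ▸ hs.rep_mul hσ h⟩

theorem valid_gsU : InC RepJ gsU ⊤ := valid₀.subset fun _ h => by simp [h]

theorem valid_stQ : InC RepJ (stQ.map Prod.fst) ⊤ := valid_gsU.subset fun c h => by
  rw [h_gs.2.2, ← h_gs.1]; simp [h]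

theorem valid_stU : InC RepJ (stU.map Prod.fst) ⊤ := valid_gsU.subset fun c h => by
  rw [← List.mem_reverse, h_gs.2.1] at h
  rw [h_gs.2.2]
  exact List.mem_append_left gsQ h

theorem valid_LQ : InC RepJ LQ ⊤ :=
  chain_valid soundJ h_stQ valid_stQ (InC.nil.cons trivial rep_one)

theorem valid_LU : InC RepJ LU ⊤ := chain_valid soundJ h_stU valid_stU valid_LQ

theorem exists_elts : ∃ r₁ r₂ s x c m t, RepJ (sg (-1) 1 1) r₁ ∧ RepJ (sg 1 (-1) 1) r₂ ∧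
    RepJ SW s ∧ RepJ XX x ∧ RepJ CP c ∧ RepJ (sg (-1) (-1) (-1)) m ∧ RepJ SW12 t := by
  have h := soundJ.inC_of_all valid_LQ h_norm.2.2.2.2.2.1
  obtain ⟨r₁, -, h₁⟩ := h (sg (-1) 1 1) (by simp [VV])
  obtain ⟨r₂, -, h₂⟩ := h (sg 1 (-1) 1) (by simp [VV])
  obtain ⟨s, -, hs⟩ := h SW (by simp)
  obtain ⟨m, -, hm⟩ := h (sg (-1) (-1) (-1)) (by simp [VV])
  obtain ⟨c, -, hc⟩ := valid₀ CP (by simp)
  obtain ⟨t, -, ht⟩ := valid₀ SW12 (by simp)
  obtain ⟨x, -, hx⟩ := soundJ.build h_gp (valid_LU.cons (Subgroup.mem_top _) hc) XX (by simp)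
  exact ⟨_, _, _, _, _, _, _, h₁, h₂, hs, hx, hc, hm, ht⟩

theorem finite_center : Finite (Subgroup.center twoJ2) := by
  obtain ⟨r₁, r₂, s, x, c, m, t, h₁, h₂, hs, hx, -⟩ := exists_elts
  refine Set.Finite.subset (s := Set.image2 (fun (p : twoJ2 × twoJ2) u => p.1⁻¹ * u * p.2⁻¹)
    (({1, s} : Set twoJ2) ×ˢ ({1, x, x * x} : Set twoJ2)) {g | ∃ c ∈ LU, RepJ c g})
    (Set.Finite.image2 _ (Set.Finite.prod (Set.toFinite _) (Set.toFinite _)) (soundJ.finite LU))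
    fun g hg => ?_
  have hc : ∀ r, g * r * g⁻¹ = r := fun r => by
    rw [← Subgroup.mem_center_iff.1 hg r, mul_inv_cancel_right]
  obtain ⟨t, ht, y, hy, h⟩ := main (g := g) h₁ h₂ hs hx ⟨sg (-1) 1 1, by simp [ZU], by rwa [hc]⟩
    ⟨sg 1 (-1) 1, by simp [VV], by rwa [hc]⟩
  exact ⟨(t, y), ⟨ht, hy⟩, _, h, by simp [mul_assoc]⟩

theorem crit [Finite twoJ2] : Crit 2 (subC RepJ gsU) (Subgroup.center twoJ2) := by
  obtain ⟨r₁, r₂, s, x, c, m, t, h₁, h₂, hs, hx, hc, hm, ht⟩ := exists_elts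
  obtain ⟨hQ, pQ⟩ := soundJ.chain₀ rep_one h_stQ valid_stQ
  rw [h_gs.1] at hQ pQ
  obtain ⟨hU, pU⟩ := soundJ.chain h_stU valid_stU hQ pQ
  rw [h_gs.2.1, show [A1, A2] ++ gsQ = gsU from h_gs.2.2.symm] at hU pU
  obtain ⟨n1, n2, n3, n4, n5, n6, n7, n8, n9⟩ := h_norm
  have iU : InC RepJ gsU (subC RepJ gsU) := valid_gsU.subC
  have iQ : InC RepJ gsQ (subC RepJ gsQ) :=
    InC.subC (valid_gsU.subset fun c h => by simp [h_gs.2.2, h])
  set U := subC RepJ gsU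
  set Q := subC RepJ gsQ
  set K := Subgroup.center twoJ2
  have hQU : Q ≤ U := soundJ.subC_le (iU.subset fun c h => by simp [h_gs.2.2, h])
  have hQn : U ≤ Subgroup.normalizer (Q : Set twoJ2) := soundJ.subC_le (by
    obtain ⟨a, -, ha⟩ := valid_gsU A1 (by simp [h_gs.2.2])
    obtain ⟨b, -, hb⟩ := valid_gsU A2 (by simp [h_gs.2.2])
    rw [h_gs.2.2]
    exact ((iQ.mono Subgroup.le_normalizer).cons (soundJ.norm n2 hb hQ.2) hb).cons
      (soundJ.norm n1 ha hQ.2) ha)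
  have iV : InC RepJ (SW :: VV) Q := soundJ.inC_of_all hQ.2 n6
  have hZV : ∀ c ∈ ZU, c ∈ SW :: VV := fun c h => List.mem_cons_of_mem _
    (List.mem_append_left [sg 1 (-1) 1, sg 1 1 (-1), sg (-1) (-1) 1, sg (-1) 1 (-1)] h)
  have hKU : ∀ k ∈ U, k ∈ K → ∃ c ∈ KU, RepJ c k := fun k hk hK => by
    obtain ⟨c, hc, h⟩ := hU.1 k hk
    refine soundJ.cen h_c1 (valid₀.subset fun _ h => List.mem_cons_of_mem _ h) hc h fun u _ =>
      ⟨_, List.mem_cons_self, ?_⟩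
    rw [Subgroup.mem_center_iff.1 hK u]
    simpa using rep_one
  have iK : InC RepJ KU K := (InC.nil.cons (mem_center hm) hm).cons (one_mem _) rep_one
  have hC : ∀ u ∈ U, (∀ q ∈ Q, q * u * q⁻¹ * u⁻¹ ∈ K) → ∃ c ∈ ZU, RepJ c u := fun u hu h => by
    obtain ⟨c, hc, h'⟩ := hU.1 u hu
    exact soundJ.cen h_c2 iQ hc h' fun q hq => hKU _ (mul_mem (mul_mem (mul_mem (hQU hq) hu)
      (inv_mem (hQU hq))) (inv_mem hu)) (h q hq)
  have hZc : ∀ c ∈ ZU, ∀ y, RepJ c y → ∀ u ∈ U, u * y = y * u := fun c hc y hy =>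
    soundJ.cent (allL_iff.1 n7 c hc) hy
  have hZ : ∀ y ∈ U, (∀ u ∈ U, u * y = y * u) → ∃ c ∈ ZU, RepJ c y := fun y hy h =>
    hC y hy fun q hq => by simp [h q (hQU hq)]
  have hr₁ : r₁ ∈ U := hQU (soundJ.mem_sub iV (by simp [VV]) h₁)
  have hr₂ : r₂ ∈ U := hQU (soundJ.mem_sub iV (by simp [VV]) h₂)
  have conjZ : ∀ g ∈ Subgroup.normalizer (U : Set twoJ2), ∀ y ∈ U, (∀ u ∈ U, u * y = y * u) →
      ∃ c ∈ ZU, RepJ c (g * y * g⁻¹) := fun g hg y hy h => hZ _ ((hg y).1 hy) fun u hu => by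
    have := h _ ((inv_mem hg u).1 hu)
    calc u * (g * y * g⁻¹) = g * (g⁻¹ * u * g⁻¹⁻¹ * y) * g⁻¹ := by group
      _ = _ := by rw [this]; group
  have hx3 : x * x * x = 1 := soundJ.eq_of (soundJ.rep_mul (soundJ.rep_mul hx hx) hx) rep_one n5
  have gx : Good 2 U K Q x := soundJ.mem_sub (soundJ.build (T := goodSubgroup 2 U K hQU) h_gp
    ((hU.2.mono fun u hu => Good.of_mem pU hQU hu (hQn hu)).cons
      (Good.pel (k := 2) hQU (soundJ.norm n3 hc hQ.2) (by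
        rw [show c ^ 2 ^ 2 = c * c * (c * c) by simp [pow_succ, mul_assoc]]
        exact soundJ.eq_of (soundJ.rep_mul (soundJ.rep_mul hc hc) (soundJ.rep_mul hc hc))
          rep_one n4)) hc)) List.mem_cons_self hx
  refine crit_of_data pU hQU hQn (fun g hg => ?_) (fun u hu h => ?_) hr₁ (fun h => ?_)
    (fun u hu h => ?_) fun T hT hK hz h => ?_
  · obtain ⟨t, ht, y, hy, d, hd, h⟩ := main (g := g) h₁ h₂ hs hx
      (conjZ g hg r₁ hr₁ (hZc _ (by simp [ZU]) _ h₁)) (by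
        obtain ⟨d, hd, h⟩ := hU.1 _ ((hg r₂).1 hr₂)
        refine soundJ.cen h_c3 iU hd h fun u hu => ?_
        have hu' := (inv_mem hg u).1 hu
        obtain ⟨e, he, h'⟩ := hU.1 _ hu'
        obtain ⟨k, hk, h''⟩ := anyL_iff.1 (allL_iff.1 h_c4 e he)
        obtain ⟨w, hw, hw'⟩ := iV k (hZV k hk)
        have := soundJ.eq_of (soundJ.rep_mul h' h₂) (soundJ.rep_mul hw' (soundJ.rep_mul h₂ h')) h''
        have e : u * (g * r₂ * g⁻¹) * u⁻¹ * (g * r₂ * g⁻¹)⁻¹ = g * w * g⁻¹ := by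
          rw [← mul_inv_eq_iff_eq_mul] at this
          rw [← this]; group
        rw [e]
        exact conjZ g hg w (hQU hw) (hZc k hk w hw'))
    have htU : t ∈ U := by
      rcases ht with rfl | rfl
      exacts [one_mem _, hQU (soundJ.mem_sub iV (by simp) hs)]
    refine ⟨t⁻¹ * (t * g * y), mul_mem (inv_mem htU) (soundJ.mem_sub hU.2 hd h), y⁻¹, ?_, ?_,
      by group⟩
    · rcases hy with rfl | rfl | rfl
      · simp
      · rw [inv_pow, pow_three', hx3, inv_one]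
      · rw [inv_pow, show (x * x) ^ 3 = x * x * x * (x * x * x) by
          simp [pow_succ, mul_assoc], hx3, mul_one, inv_one]
    · rcases hy with rfl | rfl | rfl
      exacts [(Good.one hQU).inv, gx.inv, (gx.mul gx).inv]
  · obtain ⟨c, hc, h'⟩ := hC u hu fun q hq => by
      have := inv_mem (h q hq)
      rwa [show (u * q * u⁻¹ * q⁻¹)⁻¹ = q * u * q⁻¹ * u⁻¹ by group] at this
    exact Subgroup.mem_sup_left (soundJ.mem_sub iV (hZV c hc) h')
  · exact soundJ.ne_of (soundJ.rep_mul ht h₁) (soundJ.rep_mul h₁ ht) n8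
      (Subgroup.mem_center_iff.1 h t)
  · obtain ⟨c, hc, h'⟩ := hC u hu fun q hq => h q (hQU hq)
    have := allL_iff.1 n9 c hc
    rw [Bool.or_eq_true] at this
    exact this.imp (soundJ.mem_sub' iK · h') (soundJ.mem_sub' iK · (soundJ.rep_mul h₁ h'))
  · exact soundJ.subC_le (soundJ.fuse valid₀ hU.2 h h_fp ((InC.nil.cons
      (hK ⟨hQU (soundJ.mem_sub iV (by simp [VV]) hm), mem_center hm⟩) hm).cons hz h₁))

theorem isSimple {G : Type*} [Group G] [Finite G] (hG : IsoJ2 G) (S : Sylow 2 G) :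
    (groupFusionSystem (S : Subgroup G)).IsSimple 2 := by
  obtain ⟨e⟩ := hG
  have : Finite J2 := Finite.of_equiv _ e.toEquiv
  have := finite_center
  have : Finite twoJ2 := Finite.of_equiv _
    (Subgroup.groupEquivQuotientProdSubgroup (s := Subgroup.center twoJ2)).symm
  refine Crit.isSimple (e.symm.toMonoidHom.comp (QuotientGroup.mk' _))
    (e.symm.surjective.comp (QuotientGroup.mk'_surjective _)) ?_ S (U := subC RepJ gsU)
  convert crit using 1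
  ext g
  simp

end Cfsg.Agent.SporFus.J2
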